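import Cfsg.Agent.Lib.Involution.QEightMain
import Cfsg.Agent.Lib.Involution.ZStarBasic
import Cfsg.Agent.Lib.Components.Cores
import Cfsg.Agent.Lib.Coprime.Action
import Cfsg.Prelude.Def_Solvable

/-!
An involution whose products with its conjugates are `p`-elements (`p` odd) is central modulo `O_p(G)`.
-/

set_option autoImplicit false
set_option linter.style.haveILetI false

namespace Cfsg.Agent.Lib.Fischer

open Subgroup Cfsg Cfsg.Agent.Lib.Involution

universe u

variable {G : Type u} [Group G]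

/-- If the indices of two subgroups are coprime, their product is the whole group. -/
lemma exists_mul_eq_of_coprime_index [Finite G] {C P : Subgroup G}
    (h : C.index.Coprime P.index) (x : G) : ∃ y ∈ P, ∃ c ∈ C, x = y * c := by
  have h1 : (C ⊓ P).index = P.relIndex C * C.index := by
    rw [← relIndex_mul_index (inf_le_left : C ⊓ P ≤ C), inf_relIndex_left]
  have hd : C.index * P.index ∣ (C ⊓ P).index :=
    h.mul_dvd_of_dvd_of_dvd (index_dvd_of_le inf_le_left) (index_dvd_of_le inf_le_right)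
  have h2 : P.index ∣ P.relIndex C := by
    rw [h1, mul_comm (P.relIndex C)] at hd
    exact Nat.dvd_of_mul_dvd_mul_left (Nat.pos_of_ne_zero index_ne_zero_of_finite) hd
  have hs : MulAction.stabilizer C ((1 : G) : G ⧸ P) = P.subgroupOf C := by
    ext c
    rw [MulAction.mem_stabilizer_iff, mem_subgroupOf]
    show ((((c : G) * 1 : G)) : G ⧸ P) = _ ↔ _
    rw [mul_one, QuotientGroup.eq, mul_one, inv_mem_iff]
  have h3 : MulAction.orbit C ((1 : G) : G ⧸ P) = Set.univ := by
    apply Set.eq_of_subset_of_ncard_le (Set.subset_univ _) _ (Set.toFinite _)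
    rw [Set.ncard_univ, ← index_eq_card, ← MulAction.index_stabilizer, hs]
    exact Nat.le_of_dvd (Nat.pos_of_ne_zero index_ne_zero_of_finite) h2
  obtain ⟨c, hc⟩ := (Set.eq_univ_iff_forall.mp h3) ((x⁻¹ : G) : G ⧸ P)
  change (((c : G) * 1 : G) : G ⧸ P) = _ at hc
  rw [mul_one, QuotientGroup.eq] at hc
  exact ⟨((c : G)⁻¹ * x⁻¹)⁻¹, inv_mem hc, (c : G)⁻¹, inv_mem c.2, by group⟩

theorem mem_pCore_of_pProducts [Finite G] {p : ℕ} (hp : p.Prime) (hp2 : p ≠ 2) {d : G}
    (hd : orderOf d = 2)
    (hprod : ∀ g : G, ∃ k : ℕ, orderOf (d * (g * d * g⁻¹)) = p ^ k) (g : G) :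
    d * (g * d * g⁻¹) ∈ pCore p G := by
  have hodd : ∀ g : G, Odd (orderOf (d * (g * d * g⁻¹))) := fun g => by
    obtain ⟨k, hk⟩ := hprod g
    rw [hk]; exact (hp.odd_of_ne_two hp2).pow
  have hiso := iso_of_odd hd hodd
  set O := oddCore G with hOdef
  haveI hOn : O.Normal := oddCore_normal
  have hmem : ∀ g : G, d * (g * d * g⁻¹) ∈ O := fun g => by
    rw [← comm_eq hd]; exact zstar hiso g
  haveI : Fact p.Prime := ⟨hp⟩
  have hcop : (Nat.card (zpowers d)).Coprime (Nat.card O) := by
    rw [Nat.card_zpowers, hd]; exact odd_card_oddCore.coprime_two_left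
  have hAK : zpowers d ≤ normalizer (O : Set G) := normalizer_eq_top (H := O) ▸ le_top
  have hsolv : Group.IsSolvable (zpowers d) ∨ Group.IsSolvable O :=
    Or.inl (Group.isSolvable_of_comm fun ⟨a, i, hi⟩ ⟨b, j, hj⟩ => Subtype.ext (by
      subst hi hj; exact ((Commute.refl d).zpow_zpow i j).eq))
  set C : Subgroup O := (centralizer {d}).subgroupOf O with hC
  have hinv : ∀ {q : ℕ}, q.Prime → ∃ R : Sylow q O, ∀ x : O, x ∈ R →
      d * ((x : G) * d * (x : G)⁻¹) ∈ (R : Subgroup O).map O.subtype := by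
    intro q hq
    haveI : Fact q.Prime := ⟨hq⟩
    obtain ⟨R, hR⟩ := Coprime.exists_invariant_sylow hAK hcop hsolv q
    refine ⟨R, fun x hx => ?_⟩
    have hx' : (x : G) ∈ (R : Subgroup O).map O.subtype := mem_map_of_mem _ hx
    rw [← comm_eq hd]
    exact mul_mem ((mem_normalizer_iff.mp (hR (mem_zpowers d)) _).mp hx') (inv_mem hx')
  -- the index of the centraliser is a power of `p`
  have hidx : ∀ q : ℕ, q.Prime → q ∣ C.index → q = p := by
    intro q hq hdvd
    by_contra hne
    haveI : Fact q.Prime := ⟨hq⟩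
    obtain ⟨R, hR⟩ := hinv hq
    have hle : (R : Subgroup O) ≤ C := by
      intro x hx
      obtain ⟨y, hy, hye⟩ := hR x hx
      obtain ⟨k, hk⟩ := hprod (x : G)
      obtain ⟨j, hj⟩ := (IsPGroup.iff_orderOf.mp R.isPGroup') ⟨y, hy⟩
      rw [orderOf_mk, ← orderOf_coe] at hj
      change (y : G) = _ at hye
      rw [hye, hk] at hj
      have h1 : d * ((x : G) * d * (x : G)⁻¹) = 1 := by
        rw [← orderOf_eq_one_iff, hk]
        rcases k with _ | k
        · rfl
        rcases j with _ | j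
        · exact hj
        have h : q ∣ p ^ (k + 1) := hj ▸ dvd_pow_self q j.succ_ne_zero
        exact absurd ((Nat.prime_dvd_prime_iff_eq hq hp).mp (hq.dvd_of_dvd_pow h)) hne
      have h2 : (x : G) * d * (x : G)⁻¹ = d := (eq_inv_of_mul_eq_one_right h1).trans (inv_self hd)
      rw [hC, mem_subgroupOf, mem_centralizer_singleton_iff]
      exact mul_inv_eq_iff_eq_mul.mp h2
    exact R.not_dvd_index (hdvd.trans (index_dvd_of_le hle))
  obtain ⟨P, hP⟩ := hinv hp
  have hcopI : C.index.Coprime (P : Subgroup O).index := by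
    refine Nat.coprime_of_dvd fun q hq h1 h2 => ?_
    obtain rfl := hidx q hq h1
    exact P.not_dvd_index h2
  set P' := (P : Subgroup O).map O.subtype with hP'
  have hall : ∀ x ∈ O, d * (x * d * x⁻¹) ∈ P' := by
    intro x hx
    obtain ⟨y, hy, c, hc, hxyc⟩ := exists_mul_eq_of_coprime_index hcopI ⟨x, hx⟩
    have hc' : (c : G) * d = d * c := mem_centralizer_singleton_iff.mp hc
    have : x * d * x⁻¹ = (y : G) * d * (y : G)⁻¹ := by
      rw [show x = (y : G) * (c : G) from congrArg Subtype.val hxyc, mul_inv_rev,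
        mul_assoc (y : G) (c : G) d, hc']
      group
    rw [this]; exact hP y hy
  set N : Subgroup G := closure {z | ∃ x ∈ O, z = d * (x * d * x⁻¹)} with hN
  have hNP : N ≤ P' := by
    rw [hN, closure_le]; rintro z ⟨x, hx, rfl⟩; exact hall x hx
  have hNO : N ≤ O := by
    rw [hN, closure_le]; rintro z ⟨x, -, rfl⟩; exact hmem x
  have hNp : IsPGroup p N := (P.isPGroup'.map O.subtype).to_le hNP
  have hnorm : O ≤ normalizer (N : Set G) := by
    have key : ∀ x ∈ O, ∀ z ∈ N, x * z * x⁻¹ ∈ N := by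
      intro x hx z hz
      induction hz using closure_induction with
      | mem w hw =>
        obtain ⟨y, hy, rfl⟩ := hw
        have e : x * (d * (y * d * y⁻¹)) * x⁻¹
            = (d * (x * d * x⁻¹))⁻¹ * (d * ((x * y) * d * (x * y)⁻¹)) := by
          simp only [mul_inv_rev, inv_inv, inv_self hd, mul_assoc, inv_mul_cancel_left,
            mul_inv_cancel_left, mul_mul_self_left hd]
        rw [e]
        exact mul_mem (inv_mem (subset_closure ⟨x, hx, rfl⟩))
          (subset_closure ⟨x * y, mul_mem hx hy, rfl⟩)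
      | one => simp
      | mul a b _ _ ha hb => rw [show x * (a * b) * x⁻¹ = x * a * x⁻¹ * (x * b * x⁻¹) by group]; exact mul_mem ha hb
      | inv a _ ha => rw [show x * a⁻¹ * x⁻¹ = (x * a * x⁻¹)⁻¹ by group]; exact inv_mem ha
    intro x hx
    rw [mem_normalizer_iff]
    refine fun z => ⟨fun hz => key x hx z hz, fun hz => ?_⟩
    have := key x⁻¹ (inv_mem hx) _ hz
    rwa [show x⁻¹ * (x * z * x⁻¹) * x⁻¹⁻¹ = z by group] at this
  haveI : (N.subgroupOf O).Normal := normal_subgroupOf_of_le_normalizer hnorm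
  have hsub : N.IsSubnormal := IsSubnormal.step N O hNO hOn.isSubnormal inferInstance
  have hNcore : N ≤ pCore p G := Components.le_pCore_of_subnormal hsub hNp
  -- every product is such a commutator
  obtain ⟨k, hk⟩ := conj_of_odd hd ((orderOf_conj g d).trans hd) (hodd g)
  have hxO : (d * (g * d * g⁻¹)) ^ k ∈ O := pow_mem (hmem g) k
  rw [← hk]
  exact hNcore (subset_closure ⟨_, hxO, rfl⟩)

theorem mul_mem_pCore_of_pProducts [Finite G] {p : ℕ} (hp : p.Prime) (hp2 : p ≠ 2) {d : G}
    (hd : orderOf d = 2)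
    (hprod : ∀ g : G, ∃ k : ℕ, orderOf (d * (g * d * g⁻¹)) = p ^ k) {a b : G}
    (ha : a ∈ conjugatesOf d) (hb : b ∈ conjugatesOf d) : a * b ∈ pCore p G := by
  obtain ⟨g, rfl⟩ := isConj_iff.mp ha
  obtain ⟨h, rfl⟩ := isConj_iff.mp hb
  have := mul_mem (inv_mem (mem_pCore_of_pProducts hp hp2 hd hprod g))
    (mem_pCore_of_pProducts hp hp2 hd hprod h)
  simpa only [mul_inv_rev, inv_inv, inv_self hd, mul_assoc, mul_mul_self_left hd] using this

end Cfsg.Agent.Lib.Fischer
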